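import Cfsg.Agent.H517.PQR.Tools
import Cfsg.Agent.KFacts.FiTTh.BasFi
import Cfsg.Agent.S0377
import Cfsg.Agent.S1688
import Cfsg.Agent.S1696
import Cfsg.Agent.S1697
import Cfsg.Agent.S2054
import Cfsg.Agent.SporadicA.MathieuRecog

set_option autoImplicit false
set_option maxRecDepth 100000

/-!
# S3988 (helper517): the row of `Fi23`

`2.Fi22` (S1688) for `3, 5, 7, 11, 13`; `2^11.M23` (helper286) for `23`; for `17` the triple
`x = c e j`, `y = f h d g b a`, `x y` of order 17 (the Coxeter element of `Y_341`).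
-/

namespace Cfsg.Agent.H517.PQR.Fi23Row

open Cfsg.Agent.H562.PQR
open Cfsg Subgroup Cfsg.Agent.Lib.PermNetPt
open Cfsg.Agent.Fischer.Fi23Nets Cfsg.Agent.Fischer.Fi23Rel Cfsg.Agent.Fischer.Fi23Hom Cfsg.Agent.Fischer.Fi23Orb
open Cfsg.Agent.Fischer.Fi23Z
open Cfsg.Agent.Fischer.Fi23Final (gen_sq gen_rel conj_of_edge gens_top)
open Cfsg.Agent.Fischer.Fi23Class (gen_comm)
open Cfsg.Agent.Fischer.Fi23Simple (card_Fi23 isFi23 rho_injective)
open Cfsg.Agent.KFacts.FiTTh.BasChk Cfsg.Agent.KFacts.FiTTh.BasFi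
open Cfsg.Agent.KFacts.FiTTh.Cent
open Cfsg.Spor Cfsg.Spor.Fi23

theorem eq_one_of_fix (w : List Gen) (h : ∀ x : Gen, chkPt (w.map net) (pn x) (pn x) = true) : word w = 1 := by
  have hc : ∀ x : Gen, word w * gen x = gen x * word w := by
    intro x
    obtain ⟨g, h1, h2⟩ := ptgen x
    have h3 := rho_of_chkPt (h x)
    rw [← h2, fixes_iff, h1] at h3
    exact h3
  have central : ∀ y : Fi23, word w * y = y * word w := by
    intro y
    have h : y ∈ centralizer ({word w} : Set Fi23) := by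
      have h1 : (⊤ : Subgroup Fi23) ≤ centralizer ({word w} : Set Fi23) := by
        rw [← gens_top, closure_le]
        rintro _ ⟨x, rfl⟩
        rw [SetLike.mem_coe, mem_centralizer_singleton_iff]
        exact (hc x).symm
      exact h1 trivial
    exact (mem_centralizer_singleton_iff.1 h).symm
  have h1 : word w ∈ center Fi23 := mem_center_iff.2 fun y => (central y).symm
  have h2 := Cfsg.Agent.Fischer.Fi23Cover.center_eq_bot_of_simple isFi23.1 not_prime
  rw [h2] at h1
  exact mem_bot.1 h1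

theorem word_rep (l : List Gen) (n : ℕ) : word (List.replicate n l).flatten = (word l) ^ n := by
  induction n with
  | zero => rw [List.replicate_zero, List.flatten_nil, word_nil, pow_zero]
  | succ n ih => rw [List.replicate_succ, List.flatten_cons, word_append, ih, pow_succ']

def wx : List Gen := [.c, .e, .j]
def wy : List Gen := [.f, .h, .d, .g, .b, .a]

theorem x_sq : word wx ^ 2 = 1 := by
  rw [← word_rep]
  refine eq_one_of_fix _ fun x => ?_
  cases x <;> decide +kernel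

theorem y_cube : word wy ^ 3 = 1 := by
  rw [← word_rep]
  refine eq_one_of_fix _ fun x => ?_
  cases x <;> decide +kernel

theorem z_pow : word (wx ++ wy) ^ 17 = 1 := by
  rw [← word_rep]
  refine eq_one_of_fix _ fun x => ?_
  cases x <;> decide +kernel

theorem ne_one {w : List Gen} {a b : ℕ} (h : chkPt (w.map net) a b = true) (hab : a ≠ b) : word w ≠ 1 := by
  intro h1
  have h2 := rho_of_chkPt h
  rw [h1, map_one, Equiv.Perm.one_apply] at h2
  exact hab h2

/-! ### `p = 17` -/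

theorem x_ne : word wx ≠ 1 :=
  ne_one (a := 8004) (b := 6526) (by decide +kernel) (by decide)

theorem y_ne : word wy ≠ 1 :=
  ne_one (a := 11589) (b := 9592) (by decide +kernel) (by decide)

theorem z_ne : word (wx ++ wy) ≠ 1 :=
  ne_one (a := 11589) (b := 7834) (by decide +kernel) (by decide)

theorem pe_of_pow {G : Type*} [Group G] {a : ℕ} (ha : a.Prime) {x : G} (h1 : x ≠ 1) (h : x ^ a = 1) : PE a x := by
  have : Fact a.Prime := ⟨ha⟩
  exact PE.of_orderOf ha ((orderOf_eq_prime_iff).2 ⟨h, h1⟩)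

theorem trip17 : TripABC 2 3 17 Fi23 := by
  have hz : PE 17 (word (wx ++ wy))⁻¹ := (pe_of_pow (by norm_num) z_ne z_pow).inv
  refine TripABC.of_mult (m := 1) (Cfsg.Agent.H80.Fpf.multDvd_of_cyclic one_ne_zero Cfsg.Agent.S2054.result) ?_
    (by norm_num) (by norm_num) (by norm_num) (by norm_num) (by norm_num) (by norm_num)
    (pe_of_pow (by norm_num) x_ne x_sq) (pe_of_pow (by norm_num) y_ne y_cube) hz ?_
  · intro s hs h1
    exact absurd (Nat.dvd_one.1 h1) hs.one_lt.ne'
  · rw [word_append, mul_inv_cancel]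

/-! ### `p = 23` -/

/-- the subgroup `2^11.M23` -/
def L : Subgroup Fi23 where
  carrier := {n | ∃ m ∈ Spor.M23, ∀ p, n * e p * n⁻¹ = e (m p)}
  mul_mem' := by
    rintro a b ⟨m, hm, h⟩ ⟨m', hm', h'⟩
    refine ⟨m * m', mul_mem hm hm', fun p => ?_⟩
    rw [Equiv.Perm.mul_apply, ← h, ← h']
    group
  one_mem' := ⟨1, one_mem _, fun p => by rw [one_mul, inv_one, mul_one]; rfl⟩
  inv_mem' := by
    rintro a ⟨m, hm, h⟩
    refine ⟨m⁻¹, inv_mem hm, fun p => ?_⟩
    have h1 := h (m⁻¹ p)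
    have h2 : m (m⁻¹ p) = p := m.apply_symm_apply p
    rw [h2] at h1
    rw [← h1]
    group

theorem L_unique {n : Fi23} {m m' : Equiv.Perm GolayPt} (h : ∀ p, n * e p * n⁻¹ = e (m p))
    (h' : ∀ p, n * e p * n⁻¹ = e (m' p)) : m = m' := Equiv.ext fun p => e_inj ((h p).symm.trans (h' p))

/-- the map to `M23` -/
noncomputable def gm : L →* Spor.M23 where
  toFun n := ⟨n.2.choose, n.2.choose_spec.1⟩
  map_one' := Subtype.ext (L_unique (1 : L).2.choose_spec.2 fun p => by
    rw [Subgroup.coe_one, one_mul, inv_one, mul_one]; rfl)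
  map_mul' a b := Subtype.ext (L_unique (a * b).2.choose_spec.2 fun p => by
    have ha := a.2.choose_spec.2
    have hb := b.2.choose_spec.2
    rw [Subgroup.coe_mul]
    show _ = e ((a.2.choose * b.2.choose) p)
    rw [Equiv.Perm.mul_apply, ← ha, ← hb]
    group)

theorem gm_surj : Function.Surjective gm := by
  rintro ⟨m, hm⟩
  obtain ⟨n, hn⟩ := full m hm
  refine ⟨⟨n, m, hm, hn⟩, Subtype.ext (L_unique (Subtype.property (⟨n, m, hm, hn⟩ : L)).choose_spec.2 hn)⟩

/-- `M23` is the point stabiliser in `M24`. -/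
def mulEquiv23 : Spor.M23 ≃* ↥(MulAction.stabilizer M24 (none : GolayPt)) where
  toFun g := ⟨⟨g.1, g.2.1⟩, g.2.2⟩
  invFun g := ⟨(g.1 : Equiv.Perm GolayPt), g.1.2, g.2⟩
  left_inv _ := rfl
  right_inv _ := rfl
  map_mul' _ _ := rfl

theorem simple_M23 : IsSimpleGroup Spor.M23 := by
  have := Cfsg.Agent.S0377.result (none : GolayPt)
  exact (MulEquiv.isSimpleGroup_congr mulEquiv23).2 this

theorem notMin23 : NotMin 23 Fi23 := by
  have hc := Cfsg.Agent.SporadicA.MathieuRecog.card_M23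
  have : IsSimpleGroup Spor.M23 := simple_M23
  have : Finite Spor.M23 := Nat.finite_of_card_ne_zero (by rw [hc]; norm_num)
  obtain ⟨h1, hcard⟩ : IsFi23 Fi23 := Cfsg.Agent.S1697.result
  have : Finite Fi23 := Nat.finite_of_card_ne_zero (by rw [hcard]; norm_num)
  refine NotMin.of_hom (T := Spor.M23) (exists_ncomm (by rw [hc]; norm_num)) (by norm_num) (by rw [hc]; norm_num) L.subtype gm gm_surj
    ?_ ?_
  · intro x hx
    have h2 : x = 1 := Subtype.ext hx
    rw [h2]
    exact one_mem _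
  · intro hs
    -- the kernel of `L → M23` is normal in `Fi23`
    have htop : L = ⊤ := by
      rw [eq_top_iff]
      intro y _
      obtain ⟨n, hn⟩ := hs y
      rw [← hn]
      exact n.2
    let E : Fi23 ≃* L := (Subgroup.topEquiv.symm).trans (MulEquiv.subgroupCongr htop.symm)
    have := h1
    have hsL : IsSimpleGroup L := (MulEquiv.isSimpleGroup_congr E).1 h1
    have hcL : Nat.card L = 4089470473293004800 := by rw [← Nat.card_congr E.toEquiv, hcard]
    rcases (inferInstance : gm.ker.Normal).eq_bot_or_eq_top with h | h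
    · have h2 : Function.Injective gm := (MonoidHom.ker_eq_bot_iff gm).1 h
      have h3 := Nat.card_le_card_of_injective gm h2
      rw [hcL, hc] at h3
      norm_num at h3
    · have h2 : ∀ m : Spor.M23, m = 1 := by
        intro m
        obtain ⟨n, rfl⟩ := gm_surj m
        exact (MonoidHom.mem_ker (f := gm)).1 (h ▸ Subgroup.mem_top n)
      have h3 : Nat.card Spor.M23 = 1 := Nat.card_eq_one_iff_unique.2 ⟨⟨fun a b => by rw [h2 a, h2 b]⟩, ⟨1⟩⟩
      rw [hc] at h3
      norm_num at h3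

theorem fi23_primes {p : ℕ} (hp : p.Prime) (h : p ∣ 4089470473293004800) :
    p = 2 ∨ p = 3 ∨ p = 5 ∨ p = 7 ∨ p = 11 ∨ p = 13 ∨ p = 17 ∨ p = 23 := by
  rw [show 4089470473293004800 = 2 ^ 18 * 3 ^ 13 * 5 ^ 2 * 7 * 11 * 13 * 17 * 23 by norm_num, hp.dvd_mul, hp.dvd_mul,
    hp.dvd_mul, hp.dvd_mul, hp.dvd_mul, hp.dvd_mul, hp.dvd_mul] at h
  have key : ∀ {q : ℕ}, q.Prime → p ∣ q → p = q := fun hq h1 => (Nat.prime_dvd_prime_iff_eq hp hq).1 h1
  rcases h with ((((((h | h) | h) | h) | h) | h) | h) | h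
  · exact Or.inl (key (by norm_num) (hp.dvd_of_dvd_pow h))
  · exact Or.inr (Or.inl (key (by norm_num) (hp.dvd_of_dvd_pow h)))
  · exact Or.inr (Or.inr (Or.inl (key (by norm_num) (hp.dvd_of_dvd_pow h))))
  · exact Or.inr (Or.inr (Or.inr (Or.inl (key (by norm_num) h))))
  · exact Or.inr (Or.inr (Or.inr (Or.inr (Or.inl (key (by norm_num) h)))))
  · exact Or.inr (Or.inr (Or.inr (Or.inr (Or.inr (Or.inl (key (by norm_num) h))))))
  · exact Or.inr (Or.inr (Or.inr (Or.inr (Or.inr (Or.inr (Or.inl (key (by norm_num) h)))))))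
  · exact Or.inr (Or.inr (Or.inr (Or.inr (Or.inr (Or.inr (Or.inr (key (by norm_num) h)))))))

end Cfsg.Agent.H517.PQR.Fi23Row

namespace Cfsg.Agent.H517.PQR

open Cfsg.Agent.H562.PQR Fi23Row

/-- **the row of `Fi23`** -/
theorem row_Fi23 : RowOdd Cfsg.Spor.Fi23 := by
  have hcard := Cfsg.Agent.S1697.result.2
  have : Finite Cfsg.Spor.Fi23 := Nat.finite_of_card_ne_zero (by rw [hcard]; norm_num)
  intro p hp hp2 hd
  rw [hcard] at hd
  have h1 : (p = 3 ∨ p = 5 ∨ p = 7 ∨ p = 11 ∨ p = 13) → NotMin p Cfsg.Spor.Fi23 := by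
    intro h
    have hc2 := Cfsg.Agent.S1696.result.2
    have : IsSimpleGroup Cfsg.Spor.Fi22 := Cfsg.Agent.S1696.result.1
    have : Finite Cfsg.Spor.Fi22 := Nat.finite_of_card_ne_zero (by rw [hc2]; norm_num)
    refine notMin_of_cover (by rw [hc2]; norm_num) Cfsg.Agent.S1688.result hp ?_ (by rw [hc2, hcard]; norm_num)
    rw [hc2]
    rcases h with rfl | rfl | rfl | rfl | rfl <;> norm_num
  rcases fi23_primes hp hd with h | h | h | h | h | h | h | h
  · exact absurd h hp2
  · exact Or.inl (h1 (Or.inl h))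
  · exact Or.inl (h1 (Or.inr (Or.inl h)))
  · exact Or.inl (h1 (Or.inr (Or.inr (Or.inl h))))
  · exact Or.inl (h1 (Or.inr (Or.inr (Or.inr (Or.inl h)))))
  · exact Or.inl (h1 (Or.inr (Or.inr (Or.inr (Or.inr h)))))
  · rw [h]
    exact Or.inr ⟨2, 3, 17, Or.inr (Or.inr rfl), Or.inl rfl, trip17⟩
  · rw [h]
    exact Or.inl notMin23

end Cfsg.Agent.H517.PQR
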